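import Cfsg.Agent.H533.T5.Defs
import Cfsg.Agent.H957.T5Tr

/-!
# Translation: semilinear maps to automorphisms (weak rows `WRow`, any word in the pair)

* `card_modEq` : a subgroup acting as a `p`-group on an invariant finite set;
* `wrow_of` : `T = π(X)`, `X` acts faithfully and linearly on `V` through `ρ`; automorphisms of
  order `p` of `T` are induced (`Ind`, H903.SylSemi) by maps satisfying `W`; such maps inducing the
  identity are scalars.  If for all pairs `y`, `z` some word in `y`, `z^s` has no scalar `p`-power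
  power, then `WRow p T`.
-/

set_option autoImplicit false

namespace Cfsg.Agent.H450.Wf

open Cfsg.Agent.H957.T5V Cfsg.Agent.H533.T5
open Cfsg.Agent.H903.SylSemi (Ind scal scal_apply)

/-- A subgroup acting as a `p`-group on an invariant finite set. -/
theorem card_modEq {G α : Type*} [Group G] [MulAction G α] {p : ℕ} [Fact p.Prime]
    (H : Subgroup G) (Ω : Set α) (hΩ : Ω.Finite) (hinv : ∀ h ∈ H, ∀ s ∈ Ω, h • s ∈ Ω)
    (hp : ∀ h ∈ H, ∃ k : ℕ, ∀ s ∈ Ω, h ^ p ^ k • s = s) :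
    Nat.card Ω ≡ Nat.card ↥{s | s ∈ Ω ∧ ∀ h ∈ H, h • s = s} [MOD p] := by
  classical
  let Sm : SubMulAction H α := ⟨Ω, fun h {s} hs => hinv h h.2 s hs⟩
  have hfin : Finite Sm := hΩ
  set ψ : H →* Equiv.Perm Sm := MulAction.toPermHom H Sm with hψ
  have hR : IsPGroup p ψ.range := by
    rintro ⟨_, h, rfl⟩
    obtain ⟨k, hk⟩ := hp h h.2
    refine ⟨k, ?_⟩
    apply Subtype.ext
    change (ψ h) ^ p ^ k = 1
    rw [← map_pow]
    ext s
    change ((h ^ p ^ k : H) • s : Sm).1 = s.1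
    exact hk s.1 s.2
  have h1 := hR.card_modEq_card_fixedPoints Sm
  have h2 : Nat.card ↥(MulAction.fixedPoints ψ.range Sm) =
      Nat.card ↥{s | s ∈ Ω ∧ ∀ h ∈ H, h • s = s} := by
    refine Nat.card_congr ⟨fun s => ⟨s.1.1, s.1.2, fun h hh => ?_⟩,
      fun s => ⟨⟨s.1, s.2.1⟩, ?_⟩, fun s => rfl, fun s => rfl⟩
    · have h3 := s.2 ⟨ψ ⟨h, hh⟩, ⟨h, hh⟩, rfl⟩
      exact congrArg Subtype.val h3
    · rintro ⟨_, h, rfl⟩
      apply Subtype.ext
      exact s.2.2 h.1 h.2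
  rw [h2] at h1
  exact h1

variable {F : Type*} [Field F] {V : Type*} [AddCommGroup V] [Module F V]
  {T : Type*} [Group T] {X : Type*} [Group X]

omit [AddCommGroup V] in
/-- Words in `y`, `z` induce words. -/
theorem ind_closure [Finite T] [Finite V] {π : X →* T} {ρ : X →* Equiv.Perm V} {y z : Equiv.Perm V} {c d : MulAut T}
    (hy : Ind π ρ y c) (hz : Ind π ρ z d) {w : Equiv.Perm V}
    (hw : w ∈ Subgroup.closure ({y, z} : Set (Equiv.Perm V))) :
    ∃ γ ∈ Subgroup.closure ({c, d} : Set (MulAut T)), Ind π ρ w γ := by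
  induction hw using Subgroup.closure_induction with
  | mem x hx =>
    rcases hx with rfl | hx
    · exact ⟨c, Subgroup.subset_closure (by simp), hy⟩
    · rw [Set.mem_singleton_iff] at hx
      subst hx
      exact ⟨d, Subgroup.subset_closure (by simp), hz⟩
  | one => exact ⟨1, one_mem _, Ind.one π ρ⟩
  | mul a b _ _ ha hb =>
    obtain ⟨α, hα, ha⟩ := ha
    obtain ⟨β, hβ, hb⟩ := hb
    exact ⟨α * β, mul_mem hα hβ, ha.mul hb⟩
  | inv a _ ha =>
    obtain ⟨α, hα, ha⟩ := ha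
    exact ⟨α⁻¹, inv_mem hα, ha.inv⟩

theorem wrow_of [Finite T] [Finite V] [Nontrivial V] {p : ℕ} (hp : p.Prime) {π : X →* T}
    (hπ : Function.Surjective π) {ρ : X →* Equiv.Perm V} (hρ : Function.Injective ρ)
    (hρlin : ∀ s : X, Semi (1 : F ≃+* F) (ρ s)) {W : Subgroup (Equiv.Perm V)}
    (hWρ : ∀ s : X, ρ s ∈ W) (hind : ∀ c : MulAut T, orderOf c = p → ∃ y ∈ W, Ind π ρ y c)
    (huniq : ∀ y ∈ W, Ind π ρ y 1 → IsScal F y)
    (hcore : ∀ y z, y ∈ W → z ∈ W → IsScal F (y ^ p) → ¬ IsScal F y → IsScal F (z ^ p) →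
      ¬ IsScal F z → ∃ s : X, ∃ w ∈ Subgroup.closure ({y, ρ s * z * (ρ s)⁻¹} : Set (Equiv.Perm V)),
        ∀ k : ℕ, ¬ IsScal F (w ^ p ^ k)) : WRow p T := by
  have helt : ∀ c : MulAut T, orderOf c = p → ∀ y ∈ W, Ind π ρ y c →
      IsScal F (y ^ p) ∧ ¬ IsScal F y := by
    intro c hc y hy hyc
    constructor
    · have h1 := hyc.pow p
      have h2 : c ^ p = 1 := by rw [← hc, pow_orderOf_eq_one]
      rw [h2] at h1
      exact huniq _ (pow_mem hy p) h1
    · intro hs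
      obtain ⟨a, rfl⟩ := Cfsg.Agent.H957.T5Tr.exists_scal hs
      have h1 : c = 1 := Ind.unique hπ hρ hyc (Cfsg.Agent.H957.T5Tr.ind_scal hρlin a)
      rw [h1, orderOf_one] at hc
      exact hp.one_lt.ne hc
  intro c d hc hd
  obtain ⟨y, hy, hyc⟩ := hind c hc
  obtain ⟨z, hz, hzd⟩ := hind d hd
  obtain ⟨hyp, hyn⟩ := helt c hc y hy hyc
  obtain ⟨hzp, hzn⟩ := helt d hd z hz hzd
  obtain ⟨s, w, hw, h⟩ := hcore y z hy hz hyp hyn hzp hzn
  refine ⟨MulAut.conj (π s), ⟨π s, rfl⟩, fun hP => ?_⟩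
  have e1 : (ρ s)⁻¹ = ρ s⁻¹ := (map_inv ρ s).symm
  have e2 : (MulAut.conj (π s))⁻¹ = MulAut.conj (π s⁻¹) := by rw [map_inv π, map_inv]
  have h1 : Ind π ρ (ρ s * z * (ρ s)⁻¹) (MulAut.conj (π s) * d * (MulAut.conj (π s))⁻¹) := by
    rw [e1, e2]
    exact ((Ind.conj π ρ s).mul hzd).mul (Ind.conj π ρ s⁻¹)
  obtain ⟨γ, hγ, hwγ⟩ := ind_closure hyc h1 hw
  obtain ⟨k, hk⟩ := hP ⟨γ, hγ⟩
  have h2 : γ ^ p ^ k = 1 := congrArg Subtype.val hk
  have h3 := hwγ.pow (p ^ k)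
  rw [h2] at h3
  have hwW : w ∈ W := by
    have h4 : Subgroup.closure ({y, ρ s * z * (ρ s)⁻¹} : Set (Equiv.Perm V)) ≤ W := by
      rw [Subgroup.closure_le]
      rintro x (rfl | hx)
      · exact hy
      · rw [Set.mem_singleton_iff] at hx
        rw [hx]
        exact mul_mem (mul_mem (hWρ s) hz) (inv_mem (hWρ s))
    exact h4 hw
  exact h k (huniq _ (pow_mem hwW _) h3)

end Cfsg.Agent.H450.Wf
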